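import Cfsg.Agent.S4206
import Mathlib.GroupTheory.PGroup
import Mathlib.GroupTheory.Nilpotent
import Mathlib.GroupTheory.Index
import Mathlib.GroupTheory.Solvable

/-!
# Mann's bound on the order of a p-group of given derived length

For `H` normal, `H ≤ γ_r` and `H' ≠ 1` one has `|H : H'| ≥ p ^ (r + 1)`; if `|H : [H, P]| = p` then
`H' ≤ γ_(2r+1)`, and in case of equality with `|H : [H, P]| > p` the quotient `H' / [H', P]` has
order `p`.
-/

set_option autoImplicit false

namespace Cfsg.Agent.PGroupMann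

open Subgroup
open scoped commutatorElement

variable {P : Type*} [Group P]

/-- The series `[H, P, ..., P]`. -/
def ser (H : Subgroup P) : ℕ → Subgroup P
  | 0 => H
  | n + 1 => ⁅ser H n, (⊤ : Subgroup P)⁆

theorem ser_normal (H : Subgroup P) [H.Normal] : ∀ n, (ser H n).Normal
  | 0 => ‹_›
  | n + 1 => by
    haveI := ser_normal H n
    exact Subgroup.commutator_normal _ _

theorem ser_succ_le (H : Subgroup P) [H.Normal] (n : ℕ) : ser H (n + 1) ≤ ser H n := by
  haveI := ser_normal H n
  exact Subgroup.commutator_le_left _ _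

theorem ser_anti (H : Subgroup P) [H.Normal] {i j : ℕ} (h : i ≤ j) : ser H j ≤ ser H i :=
  antitone_nat_of_succ_le (ser_succ_le H) h

theorem ser_ser (H : Subgroup P) (i : ℕ) : ∀ j, ser (ser H i) j = ser H (i + j)
  | 0 => rfl
  | j + 1 => by
    show ⁅ser (ser H i) j, (⊤ : Subgroup P)⁆ = _
    rw [ser_ser H i j]; rfl

variable [Finite P]

theorem commutator_lcs_le (H : Subgroup P) [H.Normal] (j : ℕ) :
    ⁅H, (⊤ : Subgroup P).lowerCentralSeries j⁆ ≤ ser H (j + 1) := by
  have := Cfsg.Agent.S4206.result (ser H) (ser_normal H) (ser_succ_le H) ⊤ (fun i => le_refl _) 0 j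
  rwa [zero_add] at this

theorem lcs_commutator_le (i j : ℕ) :
    ⁅(⊤ : Subgroup P).lowerCentralSeries i, (⊤ : Subgroup P).lowerCentralSeries j⁆ ≤
      (⊤ : Subgroup P).lowerCentralSeries (i + j + 1) :=
  Cfsg.Agent.S4206.result _ (fun _ => inferInstance)
    (fun i => Subgroup.lowerCentralSeries_antitone _ i.le_succ) ⊤ (fun _ => le_refl _) i j

theorem relIndex_pos (H K : Subgroup P) : 0 < H.relIndex K :=
  Nat.pos_of_ne_zero Subgroup.index_ne_zero_of_finite

variable {p : ℕ} [hp : Fact p.Prime] (hP : IsPGroup p P)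
include hP

theorem eq_bot_of_le_commutator_top {H : Subgroup P} (h : H ≤ ⁅H, (⊤ : Subgroup P)⁆) : H = ⊥ := by
  haveI := hP.isNilpotent
  obtain ⟨n, hn⟩ := Subgroup.nilpotent_iff_lowerCentralSeries.1 (inferInstance : Group.IsNilpotent P)
  have key : ∀ i, H ≤ (⊤ : Subgroup P).lowerCentralSeries i := fun i => by
    induction i with
    | zero => exact le_top
    | succ i ih => exact h.trans (Subgroup.commutator_mono ih le_rfl)
  exact le_bot_iff.1 (hn ▸ key n)

theorem two_le_relIndex {H K : Subgroup P} (hlt : H < K) : p ≤ H.relIndex K := by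
  obtain ⟨k, hk⟩ := (hP.to_subgroup K).index (H.subgroupOf K)
  have h1 : H.relIndex K ≠ 1 := fun h => hlt.not_ge (Subgroup.relIndex_eq_one.1 h)
  rw [Subgroup.relIndex, hk] at h1 ⊢
  exact Nat.le_self_pow (fun h => h1 (by rw [h, pow_zero])) p

/-- Steps of the series below a nontrivial term. -/
theorem pow_le_relIndex_ser (H : Subgroup P) [H.Normal] (m : ℕ) (hm : ser H m ≠ ⊥) :
    p ^ m ≤ (ser H m).relIndex H := by
  induction m with
  | zero => simp [ser, Subgroup.relIndex_self]
  | succ m ih =>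
    have hm' : ser H m ≠ ⊥ := fun h => hm (le_bot_iff.1 (h ▸ ser_succ_le H m))
    have hlt : ser H (m + 1) < ser H m := lt_of_le_of_ne (ser_succ_le H m) fun h =>
      hm' (eq_bot_of_le_commutator_top hP h.ge)
    have hle : ser H m ≤ H := ser_anti H (Nat.zero_le m)
    rw [← Subgroup.relIndex_mul_relIndex (ser H (m + 1)) (ser H m) H (ser_succ_le H m) hle,
      pow_succ, mul_comm]
    exact Nat.mul_le_mul (two_le_relIndex hP hlt) (ih hm')

theorem relIndex_ser_ne_one (H : Subgroup P) [H.Normal] (hH : H ≠ ⊥) :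
    (ser H 1).relIndex H ≠ 1 := fun h =>
  hH (eq_bot_of_le_commutator_top hP (Subgroup.relIndex_eq_one.1 h))

/-- A subgroup with cyclic top. -/
theorem commutator_le_of_top_cyclic (H : Subgroup P) [H.Normal] (h1 : (ser H 1).relIndex H ≤ p) :
    ⁅H, H⁆ ≤ ⁅ser H 1, H⁆ := by
  rcases eq_or_ne H ⊥ with rfl | hH
  · simp
  set K := ser H 1 with hK
  haveI hKn : K.Normal := ser_normal H 1
  haveI : (⁅K, H⁆).Normal := Subgroup.commutator_normal _ _
  set N := ⁅K, H⁆
  set f := QuotientGroup.mk' N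
  have hKH : ∀ k ∈ K, ∀ h ∈ H, Commute (f k) (f h) := fun k hk h hh => by
    rw [commute_iff_eq, ← commutatorElement_eq_one_iff_mul_comm, ← map_commutatorElement,
      QuotientGroup.mk'_apply, QuotientGroup.eq_one_iff]
    exact Subgroup.commutator_mem_commutator hk hh
  obtain ⟨a, ha, haK⟩ : ∃ a ∈ H, a ∉ K := SetLike.not_le_iff_exists.1 fun h =>
    relIndex_ser_ne_one hP H hH (Subgroup.relIndex_eq_one.2 h)
  have hsup : K ⊔ zpowers a = H := by
    refine le_antisymm (sup_le (ser_succ_le H 0) (zpowers_le.2 ha)) ?_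
    by_contra hne
    have hlt1 : K ⊔ zpowers a < H :=
      lt_of_le_of_ne (sup_le (ser_succ_le H 0) (zpowers_le.2 ha)) fun h => hne h.ge
    have hlt2 : K < K ⊔ zpowers a :=
      lt_of_le_of_ne le_sup_left fun h => haK (h.ge (mem_sup_right (mem_zpowers a)))
    have h2 := Nat.mul_le_mul (two_le_relIndex hP hlt2) (two_le_relIndex hP hlt1)
    rw [Subgroup.relIndex_mul_relIndex _ _ _ hlt2.le hlt1.le] at h2
    have := hp.out.two_le
    nlinarith
  rw [Subgroup.commutator_le]
  intro x hx y hy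
  rw [← hsup] at hx hy
  rw [← QuotientGroup.eq_one_iff, ← QuotientGroup.mk'_apply, map_commutatorElement,
    commutatorElement_eq_one_iff_mul_comm]
  have key : ∀ w ∈ K ⊔ zpowers a, Commute (f w) (f a) ∧ ∀ k ∈ K, Commute (f w) (f k) := by
    intro w hw
    have hwH : w ∈ H := hsup.le hw
    refine ⟨?_, fun k hk => (hKH k hk w hwH).symm⟩
    rw [Subgroup.mem_sup_of_normal_left] at hw
    obtain ⟨k, hk, z, ⟨i, rfl⟩, rfl⟩ := hw
    rw [map_mul, map_zpow]
    exact (hKH k hk a ha).mul_left ((Commute.refl _).zpow_left i)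
  obtain ⟨hxa, hxk⟩ := key x hx
  rw [Subgroup.mem_sup_of_normal_left] at hy
  obtain ⟨k, hk, z, ⟨i, rfl⟩, rfl⟩ := hy
  rw [map_mul, map_zpow]
  exact (hxk k hk).mul_right (hxa.zpow_right i)

/-- The basic bound and its refinements. -/
theorem step (H : Subgroup P) [H.Normal] (r : ℕ)
    (hHr : H ≤ (⊤ : Subgroup P).lowerCentralSeries r) (hne : ⁅H, H⁆ ≠ ⊥) :
    p ^ (r + 2) ≤ (⁅H, H⁆).relIndex H ∧
      ⁅H, H⁆ ≤ (⊤ : Subgroup P).lowerCentralSeries (2 * r + 1) ∧
      ((ser H 1).relIndex H ≤ p → ⁅H, H⁆ ≤ (⊤ : Subgroup P).lowerCentralSeries (2 * r + 2)) ∧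
      (¬ (ser H 1).relIndex H ≤ p → (⁅H, H⁆).relIndex H ≤ p ^ (r + 2) →
        (ser ⁅H, H⁆ 1).relIndex ⁅H, H⁆ ≤ p) := by
  haveI hDn : (⁅H, H⁆).Normal := Subgroup.commutator_normal _ _
  haveI hKn : (ser H 1).Normal := ser_normal H 1
  have hHne : H ≠ ⊥ := fun h => hne (by rw [h]; simp)
  have hle : ⁅H, H⁆ ≤ ser H (r + 1) :=
    (Subgroup.commutator_mono le_rfl hHr).trans (commutator_lcs_le H r)
  have hKle : ⁅ser H 1, H⁆ ≤ ser H (r + 2) := by
    refine (Subgroup.commutator_mono le_rfl hHr).trans ((commutator_lcs_le (ser H 1) r).trans ?_)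
    rw [ser_ser, show 1 + (r + 1) = r + 2 by omega]
  have hlcs : ser H 1 ≤ (⊤ : Subgroup P).lowerCentralSeries (r + 1) :=
    Subgroup.commutator_mono hHr le_rfl
  by_cases hc : (ser H 1).relIndex H ≤ p
  · have h1 := commutator_le_of_top_cyclic hP H hc
    have h2 : ⁅H, H⁆ ≤ ser H (r + 2) := h1.trans hKle
    refine ⟨?_, (Subgroup.commutator_mono hHr hHr).trans ((lcs_commutator_le r r).trans_eq (by
      rw [two_mul])), fun _ => h1.trans ((Subgroup.commutator_mono hlcs hHr).trans
        ((lcs_commutator_le (r + 1) r).trans_eq (by congr 1; omega))), fun h => absurd hc h⟩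
    refine (pow_le_relIndex_ser hP H (r + 2) fun h => hne (le_bot_iff.1 (h ▸ h2))).trans ?_
    exact Nat.le_of_dvd (relIndex_pos _ _)
      (Subgroup.relIndex_dvd_of_le_left H h2)
  · -- the top is not cyclic
    have hK1 : p ^ 2 ≤ (ser H 1).relIndex H := by
      obtain ⟨k, hk⟩ := (hP.to_subgroup H).index ((ser H 1).subgroupOf H)
      rw [Subgroup.relIndex, hk] at hc ⊢
      refine Nat.pow_le_pow_right hp.out.pos ?_
      by_contra hk2
      exact hc ((Nat.pow_le_pow_right hp.out.pos (by omega : k ≤ 1)).trans (pow_one p).le)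
    have hrne : ser H (r + 1) ≠ ⊥ := fun h => hne (le_bot_iff.1 (h ▸ hle))
    have hsum : (ser H (r + 1)).relIndex (ser H 1) * (ser H 1).relIndex H =
        (ser H (r + 1)).relIndex H :=
      Subgroup.relIndex_mul_relIndex _ _ _ (ser_anti H (by omega)) (ser_succ_le H 0)
    have hr : p ^ r ≤ (ser H (r + 1)).relIndex (ser H 1) := by
      have hser : ser (ser H 1) r = ser H (r + 1) := by rw [ser_ser, add_comm]
      rw [← hser]
      exact pow_le_relIndex_ser hP (ser H 1) r (hser ▸ hrne)
    have hbig : p ^ (r + 2) ≤ (ser H (r + 1)).relIndex H := by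
      rw [← hsum, pow_add]; exact Nat.mul_le_mul hr hK1
    have hdvd : (ser H (r + 1)).relIndex H ∣ (⁅H, H⁆).relIndex H :=
      Subgroup.relIndex_dvd_of_le_left H hle
    have hpos : 0 < (⁅H, H⁆).relIndex H := relIndex_pos _ _
    refine ⟨hbig.trans (Nat.le_of_dvd hpos hdvd),
      (Subgroup.commutator_mono hHr hHr).trans ((lcs_commutator_le r r).trans_eq (by rw [two_mul])),
      fun h => absurd h hc, fun _ heq => ?_⟩
    have hDle : ⁅H, H⁆ ≤ H := Subgroup.commutator_le_left _ _
    have hsle : ser H (r + 1) ≤ H := ser_anti H (Nat.zero_le _)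
    -- equality: `H' = [H, P, ..., P]` and `|H : [H, P]| = p ^ 2`
    have hDeq : ⁅H, H⁆ = ser H (r + 1) := by
      refine le_antisymm hle (Subgroup.relIndex_eq_one.1 ?_)
      have h := Subgroup.relIndex_mul_relIndex _ _ _ hle hsle
      have h0 : 0 < (⁅H, H⁆).relIndex (ser H (r + 1)) := relIndex_pos _ _
      nlinarith [pow_pos hp.out.pos (r + 2)]
    have hKeq : (ser H 1).relIndex H = p ^ 2 := by
      refine le_antisymm ?_ hK1
      refine Nat.le_of_mul_le_mul_left ?_ (pow_pos hp.out.pos r)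
      rw [← pow_add]
      refine le_trans ?_ ((Nat.le_of_dvd hpos hdvd).trans heq)
      rw [← hsum]
      exact Nat.mul_le_mul_right _ hr
    set D := ⁅H, H⁆ with hD
    set K := ser H 1 with hK
    set M := ser D 1 with hM
    haveI : M.Normal := ser_normal D 1
    have hKM : ∀ k ∈ K, ∀ h ∈ H, ⁅k, h⁆ ∈ M := fun k hk h hh => by
      have h1 : ⁅k, h⁆ ∈ ser H (r + 2) := hKle (Subgroup.commutator_mem_commutator hk hh)
      rw [show ser H (r + 2) = M by rw [hM, hDeq, ser_ser]] at h1
      exact h1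
    set f := QuotientGroup.mk' M with hf
    have hcenD : ∀ d ∈ D, ∀ g : P, Commute (f d) (f g) := fun d hd g => by
      rw [commute_iff_eq, ← commutatorElement_eq_one_iff_mul_comm, ← map_commutatorElement,
        QuotientGroup.mk'_apply, QuotientGroup.eq_one_iff]
      exact Subgroup.commutator_mem_commutator hd (mem_top g)
    have hcenK : ∀ k ∈ K, ∀ h ∈ H, Commute (f k) (f h) := fun k hk h hh => by
      rw [commute_iff_eq, ← commutatorElement_eq_one_iff_mul_comm, ← map_commutatorElement,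
        QuotientGroup.mk'_apply, QuotientGroup.eq_one_iff]
      exact hKM k hk h hh
    obtain ⟨a, ha, haK⟩ : ∃ a ∈ H, a ∉ K := SetLike.not_le_iff_exists.1 fun h =>
      relIndex_ser_ne_one hP H hHne (Subgroup.relIndex_eq_one.2 h)
    -- the elements commuting with `a` modulo `M` and `K`
    obtain ⟨b, hb, hbA⟩ : ∃ b ∈ H, b ∉ K ⊔ zpowers a := by
      refine SetLike.not_le_iff_exists.1 fun hA => ?_
      refine hne (eq_bot_of_le_commutator_top hP (H := D) ?_)
      show D ≤ M
      rw [hD, Subgroup.commutator_le]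
      intro x hx y hy
      have hx' := hA hx
      have hy' := hA hy
      rw [Subgroup.mem_sup_of_normal_left] at hx' hy'
      obtain ⟨k, hk, _, ⟨i, rfl⟩, rfl⟩ := hx'
      obtain ⟨l, hl, _, ⟨j, rfl⟩, rfl⟩ := hy'
      rw [← QuotientGroup.eq_one_iff, ← QuotientGroup.mk'_apply, map_commutatorElement,
        commutatorElement_eq_one_iff_mul_comm, map_mul, map_mul, map_zpow, map_zpow]
      have hal : Commute (f a) (f l) := (hcenK l hl a ha).symm
      exact ((hcenK k hk l (ser_succ_le H 0 hl)).mul_right ((hcenK k hk a ha).zpow_right j)).mul_left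
        ((hal.zpow_left i).mul_right ((Commute.refl (f a)).zpow_zpow i j))
    have hlt2 : K < K ⊔ zpowers a :=
      lt_of_le_of_ne le_sup_left fun h => haK (h.ge (mem_sup_right (mem_zpowers a)))
    have hAle : K ⊔ zpowers a ≤ H := sup_le (ser_succ_le H 0) (zpowers_le.2 ha)
    have hAp : K.relIndex (K ⊔ zpowers a) = p := by
      have h := Subgroup.relIndex_mul_relIndex K (K ⊔ zpowers a) H le_sup_left hAle
      rw [hKeq] at h
      have h1 := two_le_relIndex hP hlt2
      have h2 := two_le_relIndex hP (lt_of_le_of_ne hAle fun h => hbA (h.ge hb))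
      have h3 := hp.out.pos
      nlinarith
    have hgen : H = (K ⊔ zpowers a) ⊔ zpowers b := by
      refine le_antisymm ?_ (sup_le hAle (zpowers_le.2 hb))
      set B := (K ⊔ zpowers a) ⊔ zpowers b
      have hBle : B ≤ H := sup_le hAle (zpowers_le.2 hb)
      by_contra hne'
      have h1 := two_le_relIndex hP (lt_of_le_of_ne hBle fun h => hne' h.ge)
      have h2 := two_le_relIndex hP (lt_of_le_of_ne (le_sup_left : K ⊔ zpowers a ≤ B)
        fun h => hbA (h.ge (mem_sup_right (mem_zpowers b))))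
      have h3 := Subgroup.relIndex_mul_relIndex K (K ⊔ zpowers a) H le_sup_left hAle
      rw [hKeq, hAp] at h3
      have h4 := Subgroup.relIndex_mul_relIndex (K ⊔ zpowers a) B H le_sup_left hBle
      have := hp.out.two_le
      nlinarith
    -- the normal subgroup generated by `[a, b]` modulo `M`
    set c := ⁅a, b⁆ with hcdef
    have hcD : c ∈ D := Subgroup.commutator_mem_commutator ha hb
    set N := M ⊔ zpowers c with hN
    haveI hNn : N.Normal := by
      refine ⟨fun x hx g => ?_⟩
      have hx' := hx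
      rw [hN, Subgroup.mem_sup_of_normal_left] at hx'
      obtain ⟨m, hm, _, ⟨i, rfl⟩, rfl⟩ := hx'
      have hxD : m * c ^ i ∈ D := D.mul_mem (ser_succ_le D 0 hm) (D.zpow_mem hcD i)
      have : g * (m * c ^ i) * g⁻¹ = ⁅g, m * c ^ i⁆ * (m * c ^ i) := by
        rw [commutatorElement_def, inv_mul_cancel_right]
      rw [this]
      refine N.mul_mem (le_sup_left (b := zpowers c) ?_) hx
      show ⁅g, m * c ^ i⁆ ∈ ⁅D, (⊤ : Subgroup P)⁆
      rw [Subgroup.commutator_comm]
      exact Subgroup.commutator_mem_commutator (mem_top g) hxD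
    set φ := QuotientGroup.mk' N
    have hMN : M ≤ N := le_sup_left
    have hφK : ∀ k ∈ K, ∀ h ∈ H, Commute (φ k) (φ h) := fun k hk h hh => by
      rw [commute_iff_eq, ← commutatorElement_eq_one_iff_mul_comm, ← map_commutatorElement,
        QuotientGroup.mk'_apply, QuotientGroup.eq_one_iff]
      exact hMN (hKM k hk h hh)
    have hφab : Commute (φ a) (φ b) := by
      rw [commute_iff_eq, ← commutatorElement_eq_one_iff_mul_comm, ← map_commutatorElement,
        QuotientGroup.mk'_apply, QuotientGroup.eq_one_iff]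
      exact mem_sup_right (mem_zpowers c)
    have hDN : D ≤ N := by
      rw [hD, Subgroup.commutator_le]
      intro x hx y hy
      rw [← QuotientGroup.eq_one_iff, ← QuotientGroup.mk'_apply, map_commutatorElement,
        commutatorElement_eq_one_iff_mul_comm]
      have hcl : ∀ w ∈ H, ∀ v ∈ H, Commute (φ v) (φ a) → Commute (φ v) (φ b) →
          Commute (φ v) (φ w) := by
        intro w hw v hv hva hvb
        have : (K ⊔ zpowers a) ⊔ zpowers b ≤ (Subgroup.centralizer ({φ v} : Set (P ⧸ N))).comap φ := by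
          refine sup_le (sup_le (fun k hk => ?_) (zpowers_le.2 ?_)) (zpowers_le.2 ?_)
          all_goals rw [Subgroup.mem_comap, Subgroup.mem_centralizer_singleton_iff]
          exacts [(hφK k hk v hv).eq, hva.eq.symm, hvb.eq.symm]
        exact (Subgroup.mem_centralizer_singleton_iff.1 (this (hgen.le hw))).symm
      have hxa : Commute (φ x) (φ a) := (hcl x hx a ha (Commute.refl _) hφab).symm
      have hxb : Commute (φ x) (φ b) := (hcl x hx b hb hφab.symm (Commute.refl _)).symm
      exact hcl y hy x hx hxa hxb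
    -- the order of `[a, b]` modulo `M`
    have hap : a ^ p ∈ K := by
      haveI : (K.subgroupOf (K ⊔ zpowers a)).Normal := inferInstance
      have h1 : (⟨a, mem_sup_right (mem_zpowers a)⟩ : ↥(K ⊔ zpowers a)) ^
          (K.subgroupOf (K ⊔ zpowers a)).index ∈ K.subgroupOf (K ⊔ zpowers a) :=
        Subgroup.pow_index_mem _ _
      rw [show (K.subgroupOf (K ⊔ zpowers a)).index = p from hAp] at h1
      simpa [Subgroup.mem_subgroupOf] using h1
    have hcp : c ^ p ∈ M := by
      have hfc : f c = ⁅f a, f b⁆ := map_commutatorElement f a b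
      have key : ∀ i : ℕ, ⁅f a ^ i, f b⁆ = f c ^ i := by
        intro i
        induction i with
        | zero => simp
        | succ i ih =>
          rw [pow_succ, show ⁅f a ^ i * f a, f b⁆ = f a ^ i * ⁅f a, f b⁆ * (f a ^ i)⁻¹ * ⁅f a ^ i, f b⁆ by
            simp only [commutatorElement_def]; group, ← hfc, pow_succ, ← map_pow]
          rw [(hcenD c hcD (a ^ i)).symm.eq, mul_inv_cancel_right]
          rw [map_pow, ih]
          exact ((Commute.refl (f c)).pow_right i).eq
      have h := key p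
      rw [← map_pow, ← map_commutatorElement, ← map_pow] at h
      have h' : f ⁅a ^ p, b⁆ = 1 := by
        rw [map_commutatorElement, commutatorElement_eq_one_iff_mul_comm]
        exact (hcenK _ hap b hb).eq
      rw [h', eq_comm, QuotientGroup.mk'_apply, QuotientGroup.eq_one_iff] at h
      exact h
    have hcM : c ∉ M := fun h => hne (eq_bot_of_le_commutator_top hP (H := D)
      (hDN.trans (sup_le le_rfl (zpowers_le.2 h))))
    -- the bound
    refine le_trans (Nat.le_of_dvd (relIndex_pos _ _) ?_)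
      (show M.relIndex N ≤ p from ?_)
    · exact dvd_of_eq (congrArg M.relIndex (le_antisymm hDN (sup_le (ser_succ_le D 0) (zpowers_le.2 hcD))))
    · haveI : (M.subgroupOf N).Normal := inferInstance
      rw [show M.relIndex N = Nat.card (↥N ⧸ M.subgroupOf N) from Subgroup.index_eq_card _]
      let w : ↥N ⧸ M.subgroupOf N := QuotientGroup.mk (⟨c, mem_sup_right (mem_zpowers c)⟩ : ↥N)
      have hwgen : ∀ u : ↥N ⧸ M.subgroupOf N, u ∈ zpowers w := by
        intro u
        obtain ⟨⟨x, hx⟩, rfl⟩ := QuotientGroup.mk_surjective u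
        have hx' := hx
        rw [hN, Subgroup.mem_sup_of_normal_left] at hx'
        obtain ⟨m, hm, _, ⟨i, rfl⟩, rfl⟩ := hx'
        refine ⟨i, ?_⟩
        show w ^ i = _
        rw [← QuotientGroup.mk_zpow, QuotientGroup.eq, Subgroup.mem_subgroupOf]
        show (c ^ i)⁻¹ * (m * c ^ i) ∈ M
        have := (ser_normal D 1).conj_mem m hm (c ^ i)⁻¹
        rwa [inv_inv, mul_assoc] at this
      rw [← orderOf_eq_card_of_forall_mem_zpowers hwgen]
      refine Nat.le_of_dvd hp.out.pos (orderOf_dvd_of_pow_eq_one ?_)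
      rw [← QuotientGroup.mk_pow, QuotientGroup.eq_one_iff, Subgroup.mem_subgroupOf]
      exact hcp

/-- The levels from `j` on. -/
theorem levels (k : ℕ) (hk : derivedSeries P k ≠ ⊥) : ∀ d j, j + d = k →
    derivedSeries P j ≤ (⊤ : Subgroup P).lowerCentralSeries (2 ^ j - 1) →
    ∃ δ e : ℕ, δ ≤ 2 ∧
      ((ser (derivedSeries P j) 1).relIndex (derivedSeries P j) ≤ p → δ ≤ 1) ∧
      (derivedSeries P j ≤ (⊤ : Subgroup P).lowerCentralSeries (2 ^ j) → δ = 0) ∧
      p ^ e ≤ (derivedSeries P k).relIndex (derivedSeries P j) ∧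
      2 ^ k + 2 * k ≤ e + 2 ^ j + 2 * j + δ := by
  intro d
  induction d with
  | zero =>
    intro j hj hle
    obtain rfl : j = k := by omega
    exact ⟨0, 0, by omega, fun _ => Nat.zero_le _, fun _ => rfl, by simp [Subgroup.relIndex_self],
      by omega⟩
  | succ d ih =>
    intro j hj hle
    have hjk : j + 1 ≤ k := by omega
    set H := derivedSeries P j with hH
    haveI : H.Normal := derivedSeries_normal P j
    have hsucc : derivedSeries P (j + 1) = ⁅H, H⁆ := derivedSeries_succ P j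
    have hne : ⁅H, H⁆ ≠ ⊥ := fun h => hk (le_bot_iff.1 (h ▸ hsucc ▸ derivedSeries_antitone P hjk))
    have h2j : 1 ≤ 2 ^ j := Nat.one_le_two_pow
    have hpow : 2 ^ (j + 1) = 2 * 2 ^ j := by ring
    obtain ⟨hs1, hs2, hs3, hs4⟩ := step hP H (2 ^ j - 1) hle hne
    rw [show 2 * (2 ^ j - 1) + 1 = 2 ^ (j + 1) - 1 by omega] at hs2
    rw [show 2 * (2 ^ j - 1) + 2 = 2 ^ (j + 1) by omega] at hs3
    rw [show 2 ^ j - 1 + 2 = 2 ^ j + 1 by omega] at hs1 hs4
    obtain ⟨δ, e, hδ, hδ1, hδ0, he, hbound⟩ := ih (j + 1) (by omega) (hsucc ▸ hs2)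
    have hanti : derivedSeries P k ≤ derivedSeries P (j + 1) := derivedSeries_antitone P hjk
    have hmul : (derivedSeries P k).relIndex H =
        (derivedSeries P k).relIndex (derivedSeries P (j + 1)) * (derivedSeries P (j + 1)).relIndex H :=
      (Subgroup.relIndex_mul_relIndex _ _ _ hanti (derivedSeries_antitone P j.le_succ)).symm
    rw [hsucc] at hδ1 hδ0
    by_cases hhi : H ≤ (⊤ : Subgroup P).lowerCentralSeries (2 ^ j)
    · obtain ⟨hh1, hh2, -, -⟩ := step hP H (2 ^ j) hhi hne
      have := hδ0 (hh2.trans (Subgroup.lowerCentralSeries_antitone _ (by omega)))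
      exact ⟨0, e + (2 ^ j + 2), by omega, fun _ => Nat.zero_le _, fun _ => rfl, by
        rw [hmul, pow_add, hsucc]; exact Nat.mul_le_mul (hsucc ▸ he) hh1, by omega⟩
    by_cases hcyc : (ser H 1).relIndex H ≤ p
    · have := hδ0 (hs3 hcyc)
      exact ⟨1, e + (2 ^ j + 1), by omega, fun _ => le_rfl, fun h => absurd h hhi, by
        rw [hmul, pow_add, hsucc]; exact Nat.mul_le_mul (hsucc ▸ he) hs1, by omega⟩
    by_cases heq : (⁅H, H⁆).relIndex H ≤ p ^ (2 ^ j + 1)
    · have := hδ1 (hs4 hcyc heq)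
      exact ⟨2, e + (2 ^ j + 1), le_rfl, fun h => absurd h hcyc, fun h => absurd h hhi, by
        rw [hmul, pow_add, hsucc]; exact Nat.mul_le_mul (hsucc ▸ he) hs1, by omega⟩
    · have hbig : p ^ (2 ^ j + 2) ≤ (⁅H, H⁆).relIndex H := by
        obtain ⟨i, hi⟩ := (hP.to_subgroup H).index ((⁅H, H⁆).subgroupOf H)
        rw [Subgroup.relIndex, hi] at heq ⊢
        refine Nat.pow_le_pow_right hp.out.pos ?_
        by_contra hi'
        exact heq (Nat.pow_le_pow_right hp.out.pos (by omega))
      exact ⟨2, e + (2 ^ j + 2), le_rfl, fun h => absurd h hcyc, fun h => absurd h hhi, by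
        rw [hmul, pow_add, hsucc]; exact Nat.mul_le_mul (hsucc ▸ he) hbig, by omega⟩

/-- Mann's bound. -/
theorem bound {n k : ℕ} (hcard : Nat.card P = p ^ n) (hk : derivedSeries P k ≠ ⊥) :
    2 ^ k + 2 * k ≤ n + 2 := by
  obtain ⟨δ, e, hδ, -, -, he, hb⟩ := levels hP k hk k 0 (Nat.zero_add k) (by simp)
  have h1 : (derivedSeries P k).relIndex (derivedSeries P 0) * Nat.card ↥(derivedSeries P k) =
      p ^ n := by
    rw [derivedSeries_zero, Subgroup.relIndex_top_right, mul_comm, Subgroup.card_mul_index, hcard]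
  have h2 : p ≤ Nat.card ↥(derivedSeries P k) := by
    have := two_le_relIndex hP (bot_lt_iff_ne_bot.2 hk)
    rwa [Subgroup.relIndex_bot_left] at this
  have h3 : p ^ (e + 1) ≤ p ^ n := by rw [← h1, pow_succ]; exact Nat.mul_le_mul he h2
  have h4 : e + 1 ≤ n := (Nat.pow_le_pow_iff_right hp.out.one_lt).1 h3
  simp only [pow_zero, mul_zero] at hb
  omega

end Cfsg.Agent.PGroupMann
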